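import Mathlib
import Cfsg.Agent.H98.GLkDefs

/-!
# S2478-POLY1 (team piece for helper98)

The number of monic polynomials of degree `m` with non-zero constant coefficient over a finite
field with `q` elements is `cm q m` (`= 1` if `m = 0`, `q ^ m - q ^ (m - 1)` otherwise).
-/

set_option autoImplicit false

namespace Cfsg.Agent.H36.GLk

open Polynomial
open Cfsg.Agent.H98.GLk

/-- Monic polynomials of degree `k + 1` correspond to their lower coefficient vectors. -/
noncomputable def monicEquivFun (F : Type*) [Field F] (n : ℕ) :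
    {g : F[X] // g.Monic ∧ g.natDegree = n} ≃ (Fin n → F) :=
  (monicEquivDegreeLT n).trans (degreeLTEquiv F n).toEquiv

theorem monicEquivFun_zero (F : Type*) [Field F] (k : ℕ)
    (g : {g : F[X] // g.Monic ∧ g.natDegree = k + 1}) :
    monicEquivFun F (k + 1) g 0 = g.1.coeff 0 := by
  have h1 : monicEquivFun F (k + 1) g 0 = g.1.eraseLead.coeff 0 := rfl
  rw [h1]
  apply eraseLead_coeff_of_ne
  rw [g.2.2]
  exact (Nat.succ_ne_zero k).symm

theorem card_ne_zero_fun (F : Type*) [Field F] [Fintype F] (k : ℕ) :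
    Nat.card {c : Fin (k + 1) → F // c 0 ≠ 0} =
      Fintype.card F ^ (k + 1) - Fintype.card F ^ k := by
  classical
  have e1 : {c : Fin (k + 1) → F // c 0 ≠ 0} ≃ {s : F × (Fin k → F) // s.1 ≠ 0} :=
    Equiv.subtypeEquiv (Fin.consEquiv (fun _ : Fin (k + 1) => F)).symm (fun c => Iff.rfl)
  have e2 : {s : F × (Fin k → F) // s.1 ≠ 0} ≃ {a : F // a ≠ 0} × (Fin k → F) :=
    Equiv.prodSubtypeFstEquivSubtypeProd (α := F) (β := Fin k → F) (p := fun a => a ≠ 0)
  rw [Nat.card_congr (e1.trans e2), Nat.card_prod, Nat.card_fun, Nat.card_fin,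
    Nat.card_eq_fintype_card, Nat.card_eq_fintype_card,
    Fintype.card_subtype_compl, Fintype.card_subtype_eq, Nat.sub_mul, one_mul, pow_succ,
    mul_comm]

/-- **S2478-POLY1** (exact statement posted by helper98). -/
theorem card_monic_coeff_zero_ne {F : Type*} [Field F] [Fintype F] (m : ℕ) :
    Nat.card {g : F[X] // g.Monic ∧ g.natDegree = m ∧ g.coeff 0 ≠ 0} = cm (Fintype.card F) m := by
  rcases Nat.eq_zero_or_eq_succ_pred m with hm | hm
  · subst hm
    have h1 : Nat.card {g : F[X] // g.Monic ∧ g.natDegree = 0 ∧ g.coeff 0 ≠ 0} = 1 := by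
      rw [Nat.card_eq_one_iff_unique]
      refine ⟨⟨?_⟩, ⟨⟨1, monic_one, natDegree_one, by simp⟩⟩⟩
      rintro ⟨a, ha1, ha2, -⟩ ⟨b, hb1, hb2, -⟩
      apply Subtype.ext
      show a = b
      rw [(Monic.natDegree_eq_zero ha1).mp ha2, (Monic.natDegree_eq_zero hb1).mp hb2]
    rw [h1]
    simp [cm]
  · obtain ⟨k, hk⟩ : ∃ k, m = k + 1 := ⟨m.pred, hm⟩
    subst hk
    have e0 : {g : F[X] // g.Monic ∧ g.natDegree = k + 1 ∧ g.coeff 0 ≠ 0} ≃
        {p : {g : F[X] // g.Monic ∧ g.natDegree = k + 1} // p.1.coeff 0 ≠ 0} :=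
      (Equiv.subtypeEquivRight (fun g => by rw [and_assoc])).trans
        (Equiv.subtypeSubtypeEquivSubtypeInter
          (fun g : F[X] => g.Monic ∧ g.natDegree = k + 1) (fun g => g.coeff 0 ≠ 0)).symm
    have e1 : {p : {g : F[X] // g.Monic ∧ g.natDegree = k + 1} // p.1.coeff 0 ≠ 0} ≃
        {c : Fin (k + 1) → F // c 0 ≠ 0} :=
      Equiv.subtypeEquiv (monicEquivFun F (k + 1))
        (fun p => by rw [monicEquivFun_zero])
    rw [Nat.card_congr (e0.trans e1), card_ne_zero_fun]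
    simp [cm]

end Cfsg.Agent.H36.GLk
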