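import Mathlib
import Cfsg.Agent.H72.Fg7Defs

/-!
# S4118-Q1 (team piece for helper72)

A TI subgroup which is a Hall subgroup of its normalizer is a Hall subgroup.
-/

set_option autoImplicit false

namespace Cfsg.Agent.H36.Zas

universe u

/-- A `p`-element of the normalizer `N` of `H` lies in `H` when `p ∤ [N : H]`. -/
theorem mem_of_pElement_normalizer {G : Type u} [Group G] [Finite G] (H : Subgroup G) (p : ℕ)
    (hp : p.Prime)
    (hcop : ¬ p ∣ (H.subgroupOf (Subgroup.normalizer (H : Set G))).index)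
    (z : G) (hz : z ∈ Subgroup.normalizer (H : Set G)) (k : ℕ) (hzk : z ^ p ^ k = 1) : z ∈ H := by
  have hnorm : (H.subgroupOf (Subgroup.normalizer (H : Set G))).Normal :=
    Subgroup.normal_in_normalizer
  set q : (Subgroup.normalizer (H : Set G)) ⧸ (H.subgroupOf (Subgroup.normalizer (H : Set G))) :=
    QuotientGroup.mk' _ ⟨z, hz⟩ with hq
  have h1 : orderOf q ∣ p ^ k := by
    apply orderOf_dvd_of_pow_eq_one
    rw [hq, ← map_pow]
    have : (⟨z, hz⟩ : Subgroup.normalizer (H : Set G)) ^ p ^ k = 1 := by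
      apply Subtype.ext
      simpa using hzk
    rw [this, map_one]
  have h2 : orderOf q ∣ (H.subgroupOf (Subgroup.normalizer (H : Set G))).index := by
    rw [Subgroup.index_eq_card]
    exact orderOf_dvd_natCard q
  have h3 : (p ^ k).Coprime (H.subgroupOf (Subgroup.normalizer (H : Set G))).index :=
    Nat.Coprime.pow_left k ((Nat.Prime.coprime_iff_not_dvd hp).mpr hcop)
  have h4 : orderOf q = 1 := Nat.eq_one_of_dvd_coprimes h3 h1 h2
  have h5 : q = 1 := orderOf_eq_one_iff.mp h4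
  rw [hq, QuotientGroup.mk'_apply, QuotientGroup.eq_one_iff] at h5
  exact Subgroup.mem_subgroupOf.mp h5

/-- **S4118-Q1**. -/
theorem stQ1 : Cfsg.Agent.H72.Zas.StQ1.{u} := by
  intro G _ _ H hTI hcop
  classical
  by_contra hnc
  obtain ⟨p, hp, hpH, hpI⟩ := Nat.Prime.not_coprime_iff_dvd.mp hnc
  have : Fact p.Prime := ⟨hp⟩
  obtain ⟨x, hx⟩ := exists_prime_orderOf_dvd_card' p hpH
  have hxH : (x : G) ∈ H := x.2
  have hxo : orderOf (x : G) = p := by rw [Subgroup.orderOf_coe, hx]
  have hx1 : (x : G) ≠ 1 := by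
    intro h
    rw [h, orderOf_one] at hxo
    exact hp.one_lt.ne hxo
  have hcent : ∀ y ∈ H, y ≠ 1 → ∀ g : G, g * y = y * g →
      g ∈ Subgroup.normalizer (H : Set G) := by
    intro y hy hy1 g hg
    by_contra hgN
    exact hy1 (hTI g hgN y hy (by rw [hg, mul_inv_cancel_right]; exact hy))
  have hpN : ¬ p ∣ (H.subgroupOf (Subgroup.normalizer (H : Set G))).index := by
    intro h
    have h1 : p ∣ Nat.gcd (Nat.card H) (H.subgroupOf (Subgroup.normalizer (H : Set G))).index :=
      Nat.dvd_gcd hpH h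
    rw [hcop.gcd_eq_one] at h1
    exact hp.one_lt.ne' (Nat.dvd_one.mp h1)
  have hxP : IsPGroup p (Subgroup.zpowers (x : G)) := by
    apply IsPGroup.of_card (n := 1)
    rw [Nat.card_zpowers, hxo, pow_one]
  obtain ⟨Q, hQ⟩ := hxP.exists_le_sylow
  have hxQ : (x : G) ∈ (Q : Subgroup G) := hQ (Subgroup.mem_zpowers _)
  have hQp : ∀ y ∈ (Q : Subgroup G), ∃ k : ℕ, y ^ p ^ k = 1 := by
    intro y hy
    obtain ⟨k, hk⟩ := Q.isPGroup' ⟨y, hy⟩
    refine ⟨k, ?_⟩
    have := congrArg Subtype.val hk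
    simpa using this
  have : Nontrivial (Q : Subgroup G) :=
    ⟨⟨⟨x, hxQ⟩, 1, fun h => hx1 (congrArg Subtype.val h)⟩⟩
  have : Nontrivial (Subgroup.center (Q : Subgroup G)) := Q.isPGroup'.center_nontrivial
  obtain ⟨z, hz1⟩ := exists_ne (1 : Subgroup.center (Q : Subgroup G))
  have hzQ : ((z : (Q : Subgroup G)) : G) ∈ (Q : Subgroup G) := (z : (Q : Subgroup G)).2
  have hz1' : ((z : (Q : Subgroup G)) : G) ≠ 1 := by
    intro h
    apply hz1
    apply Subtype.ext
    apply Subtype.ext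
    simpa using h
  have hzc : ∀ y ∈ (Q : Subgroup G), y * ((z : (Q : Subgroup G)) : G) =
      ((z : (Q : Subgroup G)) : G) * y := by
    intro y hy
    have := Subgroup.mem_center_iff.mp z.2 ⟨y, hy⟩
    have := congrArg Subtype.val this
    simpa using this
  have hzN : ((z : (Q : Subgroup G)) : G) ∈ Subgroup.normalizer (H : Set G) :=
    hcent x hxH hx1 _ (hzc x hxQ).symm
  obtain ⟨k, hk⟩ := hQp _ hzQ
  have hzH : ((z : (Q : Subgroup G)) : G) ∈ H :=
    mem_of_pElement_normalizer H p hp hpN _ hzN k hk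
  have hQH : (Q : Subgroup G) ≤ H := by
    intro y hy
    have hyN : y ∈ Subgroup.normalizer (H : Set G) := hcent _ hzH hz1' y (hzc y hy)
    obtain ⟨j, hj⟩ := hQp y hy
    exact mem_of_pElement_normalizer H p hp hpN y hyN j hj
  have h1 : H.index ∣ (Q : Subgroup G).index := Subgroup.index_dvd_of_le hQH
  exact Q.not_dvd_index (dvd_trans hpI h1)

end Cfsg.Agent.H36.Zas
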