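import Mathlib
import Cfsg.Agent.H72.Fg7Defs

/-!
# S4118-Q2 (team piece for helper72)

The join of all normal subgroups of order prime to `m` is normal of order prime to `m`.
-/

set_option autoImplicit false

namespace Cfsg.Agent.H36.Zas

universe u

/-- `|B| * [A ⊔ B : B] = |A ⊔ B|`. -/
theorem card_mul_relIndex_sup {G : Type u} [Group G] [Finite G]
    (A B : Subgroup G) : Nat.card B * B.relIndex (A ⊔ B) = Nat.card (A ⊔ B : Subgroup G) := by
  have h := Subgroup.relIndex_mul_relIndex (⊥ : Subgroup G) B (A ⊔ B) bot_le le_sup_right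
  rw [Subgroup.relIndex_bot_left, Subgroup.relIndex_bot_left] at h
  exact h

/-- For a normal subgroup `B`, the order of `A ⊔ B` divides `|A| * |B|`. -/
theorem card_sup_dvd_mul {G : Type u} [Group G] [Finite G] (A B : Subgroup G) [hB : B.Normal] :
    Nat.card (A ⊔ B : Subgroup G) ∣ Nat.card A * Nat.card B := by
  have h1 : B.relIndex (A ⊔ B) * Nat.card B = Nat.card (A ⊔ B : Subgroup G) := by
    rw [mul_comm]
    exact card_mul_relIndex_sup A B
  rw [← h1, Subgroup.relIndex_sup_right]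
  exact Nat.mul_dvd_mul_right (Subgroup.relIndex_dvd_card B A) _

/-- **S4118-Q2**. -/
theorem stQ2 : Cfsg.Agent.H72.Zas.StQ2.{u} := by
  intro G _ _ m O hO
  classical
  set S : Set (Subgroup G) := {K : Subgroup G | K.Normal ∧ (Nat.card K).Coprime m} with hS
  have hbot : (⊥ : Subgroup G) ∈ S := by
    refine ⟨inferInstance, ?_⟩
    rw [Subgroup.card_bot]
    exact Nat.coprime_one_left m
  -- a maximal element of `S` with respect to the order
  obtain ⟨K₀, hK₀, hmax⟩ : ∃ K₀ ∈ S, ∀ K ∈ S, Nat.card K ≤ Nat.card K₀ := by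
    have hfin : S.Finite := Set.toFinite S
    obtain ⟨K₀, hK₀, hmax⟩ := hfin.exists_maximalFor (fun K : Subgroup G => Nat.card K) S ⟨⊥, hbot⟩
    refine ⟨K₀, hK₀, fun K hK => ?_⟩
    by_contra hlt
    have hlt' : Nat.card K₀ < Nat.card K := not_le.mp hlt
    have h4 : Nat.card K ≤ Nat.card K₀ := hmax hK hlt'.le
    omega
  have hle : ∀ K ∈ S, K ≤ K₀ := by
    intro K hK
    have : K.Normal := hK.1
    have : K₀.Normal := hK₀.1
    have hmem : (K₀ ⊔ K : Subgroup G) ∈ S := by
      refine ⟨inferInstance, ?_⟩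
      exact Nat.Coprime.coprime_dvd_left (card_sup_dvd_mul K₀ K)
        (Nat.Coprime.mul_left hK₀.2 hK.2)
    have h1 := hmax _ hmem
    have h2 : Nat.card K₀ ≤ Nat.card (K₀ ⊔ K : Subgroup G) :=
      Nat.le_of_dvd Nat.card_pos (Subgroup.card_dvd_of_le le_sup_left)
    have h3 : K₀ = K₀ ⊔ K :=
      Subgroup.eq_of_le_of_card_ge le_sup_left h1
    rw [h3]
    exact le_sup_right
  have hO' : O = K₀ := by
    rw [hO]
    exact le_antisymm (sSup_le hle) (le_sSup hK₀)
  rw [hO']
  exact hK₀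

end Cfsg.Agent.H36.Zas
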