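import Mathlib
import Cfsg.Agent.H72.Fg7Defs

/-!
# S4118-Q8 (team piece for helper72)

A perfect group normalizing a cyclic subgroup, or of odd order normalizing a generalized
quaternion subgroup, centralizes it.
-/

set_option autoImplicit false

namespace Cfsg.Agent.H36.Zas

universe u

open scoped Pointwise

/-- A perfect group normalizing a cyclic subgroup centralizes it. -/
theorem perfect_centralizes_cyclic {G : Type u} [Group G] (A C : Subgroup G)
    (hn : ∀ a ∈ A, ∀ x ∈ C, a * x * a⁻¹ ∈ C) (hperf : commutator A = ⊤) (hC : IsCyclic C) :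
    ∀ a ∈ A, ∀ x ∈ C, a * x = x * a := by
  have hexp : ∀ a ∈ A, ∃ m : ℤ, ∀ x ∈ C, a * x * a⁻¹ = x ^ m := by
    intro a ha
    let σ : C →* C :=
      { toFun := fun c => ⟨a * c * a⁻¹, hn a ha c c.2⟩
        map_one' := by ext; simp
        map_mul' := by intro x y; ext; simp [mul_assoc] }
    obtain ⟨m, hm⟩ := MonoidHom.map_cyclic σ
    refine ⟨m, fun x hx => ?_⟩
    have := congrArg Subtype.val (hm ⟨x, hx⟩)
    simpa [σ] using this
  have hcomm : ∀ a ∈ A, ∀ b ∈ A, ∀ x ∈ C,
      (a * b) * x * (a * b)⁻¹ = (b * a) * x * (b * a)⁻¹ := by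
    intro a ha b hb x hx
    obtain ⟨m, hm⟩ := hexp a ha
    obtain ⟨k, hk⟩ := hexp b hb
    have e1 : (a * b) * x * (a * b)⁻¹ = a * (b * x * b⁻¹) * a⁻¹ := by group
    have e2 : (b * a) * x * (b * a)⁻¹ = b * (a * x * a⁻¹) * b⁻¹ := by group
    rw [e1, e2, hk x hx, hm x hx, hm _ (C.zpow_mem hx k), hk _ (C.zpow_mem hx m), ← zpow_mul,
      ← zpow_mul, mul_comm]
  have hK : ∀ a : A, a ∈ (Subgroup.centralizer (C : Set G)).subgroupOf A := by
    intro a
    have ha : a ∈ commutator A := by rw [hperf]; trivial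
    rw [commutator_eq_closure] at ha
    induction ha using Subgroup.closure_induction with
    | mem y hy =>
      obtain ⟨g, h, rfl⟩ := hy
      rw [Subgroup.mem_subgroupOf, Subgroup.mem_centralizer_iff]
      intro c hc
      have hc' : ((h : G) * g)⁻¹ * c * ((h : G) * g) ∈ C := by
        have := hn ((h : G) * g)⁻¹ (A.inv_mem (A.mul_mem h.2 g.2)) c hc
        simpa using this
      have h1 := hcomm g g.2 h h.2 _ hc'
      have h2 : (h : G) * g * (((h : G) * g)⁻¹ * c * ((h : G) * g)) * ((h : G) * g)⁻¹ = c := by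
        group
      rw [h2] at h1
      have h3 : ((g * h * g⁻¹ * h⁻¹ : A) : G) = (g : G) * h * ((h : G) * g)⁻¹ := by
        simp [mul_assoc]
      rw [commutatorElement_def, h3]
      have h4 : (g : G) * h * ((h : G) * g)⁻¹ * c =
          ((g : G) * h * (((h : G) * g)⁻¹ * c * ((h : G) * g)) * ((g : G) * h)⁻¹) *
            ((g : G) * h * ((h : G) * g)⁻¹) := by group
      rw [h4, h1]
    | one => exact one_mem _
    | mul x y _ _ hx hy => exact mul_mem hx hy
    | inv x _ hx => exact inv_mem hx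
  intro a ha x hx
  have := hK ⟨a, ha⟩
  rw [Subgroup.mem_subgroupOf, Subgroup.mem_centralizer_iff] at this
  exact (this x hx).symm

/-- If a group `A` of odd order normalizes `P` and centralizes a subgroup `C` "of index two" in
`P` whose elements have order prime to `|A|`, then `A` centralizes `P`. -/
theorem centralizes_of_index_two {G : Type u} [Group G] [Finite G] (A P C : Subgroup G)
    (hn : ∀ a ∈ A, ∀ x ∈ P, a * x * a⁻¹ ∈ P)
    (hC : ∀ a ∈ A, ∀ x ∈ C, a * x = x * a)
    (h2 : ∀ x ∈ P, ∀ y ∈ P, x ∉ C → y ∉ C → x⁻¹ * y ∈ C)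
    (hpow : ∀ c ∈ C, (orderOf c).Coprime (Nat.card A)) :
    ∀ a ∈ A, ∀ x ∈ P, a * x = x * a := by
  intro a ha x hx
  by_cases hxC : x ∈ C
  · exact hC a ha x hxC
  have hy : a * x * a⁻¹ ∈ P := hn a ha x hx
  have hyC : a * x * a⁻¹ ∉ C := by
    intro h
    apply hxC
    have h0 := hC a ha _ h
    have e : x = a * x * a⁻¹ := by
      have h1 : a * (a * x * a⁻¹) = a * x := by rw [h0]; group
      exact (mul_left_cancel h1).symm
    rw [e]; exact h
  obtain ⟨c, hc⟩ : ∃ c : G, c = x⁻¹ * (a * x * a⁻¹) := ⟨_, rfl⟩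
  have hcC : c ∈ C := by rw [hc]; exact h2 x hx _ hy hxC hyC
  have hac : a * c = c * a := hC a ha c hcC
  have e4 : a * x * a⁻¹ = x * c := by rw [hc]; group
  have hconj : ∀ j : ℕ, a ^ j * x * (a ^ j)⁻¹ = x * c ^ j := by
    intro j
    induction j with
    | zero => simp
    | succ j ih =>
      have e1 : a ^ (j + 1) * x * (a ^ (j + 1))⁻¹ = a * (a ^ j * x * (a ^ j)⁻¹) * a⁻¹ := by
        rw [pow_succ']; group
      rw [e1, ih]
      have e2 : a * (x * c ^ j) * a⁻¹ = (a * x * a⁻¹) * (a * c ^ j * a⁻¹) := by group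
      have e3 : a * c ^ j * a⁻¹ = c ^ j := by
        have hcm : Commute a (c ^ j) := (show Commute a c from hac).pow_right j
        rw [hcm.eq, mul_inv_cancel_right]
      rw [e2, e3, e4, pow_succ', mul_assoc]
  have h1 := hconj (orderOf a)
  rw [pow_orderOf_eq_one] at h1
  have hc1 : c ^ orderOf a = 1 := by simpa using h1
  have hd1 : orderOf c ∣ orderOf a := orderOf_dvd_of_pow_eq_one hc1
  have hd3 : orderOf a ∣ Nat.card A := by
    have h3 := orderOf_dvd_natCard (⟨a, ha⟩ : A)
    rwa [← Subgroup.orderOf_coe] at h3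
  have hone : orderOf c = 1 :=
    Nat.eq_one_of_dvd_coprimes (hpow c hcC) dvd_rfl (hd1.trans hd3)
  have hc1' : c = 1 := orderOf_eq_one_iff.mp hone
  have h5 : a * x * a⁻¹ = x := by rw [e4, hc1', mul_one]
  calc a * x = a * x * a⁻¹ * a := by group
    _ = x * a := by rw [h5]

/-- A perfect group of odd order has no subgroup of index `3`. -/
theorem index_ne_three_of_perfect_odd {Γ : Type u} [Group Γ] [Finite Γ]
    (hperf : commutator Γ = ⊤) (hodd : Odd (Nat.card Γ)) (S : Subgroup Γ) : S.index ≠ 3 := by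
  intro h3
  have hdvd : 3 ∣ Nat.card Γ := h3 ▸ S.index_dvd_card
  have hne1 : Nat.card Γ ≠ 1 := by
    intro h
    rw [h] at hdvd
    omega
  have hmin : (Nat.card Γ).minFac = 3 := by
    have h1 : (Nat.card Γ).minFac ≤ 3 := Nat.minFac_le_of_dvd (by norm_num) hdvd
    have h2 : 2 ≤ (Nat.card Γ).minFac := (Nat.minFac_prime hne1).two_le
    have h3' : (Nat.card Γ).minFac ≠ 2 := by
      intro h
      have h4 : 2 ∣ Nat.card Γ := h ▸ Nat.minFac_dvd _
      exact (Nat.not_even_iff_odd.mpr hodd) (even_iff_two_dvd.mpr h4)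
    omega
  have : S.Normal := Subgroup.normal_of_index_eq_minFac_card (h3.trans hmin.symm)
  have hcard : Nat.card (Γ ⧸ S) = 3 := by rw [← Subgroup.index_eq_card, h3]
  have : Fact (Nat.Prime 3) := ⟨by norm_num⟩
  have : IsCyclic (Γ ⧸ S) := isCyclic_of_prime_card hcard
  let _ : CommGroup (Γ ⧸ S) := IsCyclic.commGroup
  have hle := Abelianization.commutator_subset_ker (QuotientGroup.mk' S)
  rw [QuotientGroup.ker_mk', hperf] at hle
  have htop : S = ⊤ := top_le_iff.mp hle
  rw [htop, Subgroup.index_top] at h3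
  omega

/-- The quaternion case. -/
theorem perfect_centralizes_quaternion {G : Type u} [Group G] [Finite G] (A P : Subgroup G)
    (hn : ∀ a ∈ A, ∀ x ∈ P, a * x * a⁻¹ ∈ P) (hperf : commutator A = ⊤)
    (hodd : Odd (Nat.card A))
    (N : ℕ) (hN : N = 2 ∨ 4 ≤ N) (hcop : (Nat.card A).Coprime (4 * N))
    (e : P ≃* QuaternionGroup N) : ∀ a ∈ A, ∀ x ∈ P, a * x = x * a := by
  classical
  have : NeZero N := ⟨by rcases hN with h | h <;> omega⟩
  obtain ⟨x1, hx1⟩ : ∃ x1 : G, x1 = ((e.symm (QuaternionGroup.a 1) : P) : G) := ⟨_, rfl⟩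
  have hx1P : x1 ∈ P := by rw [hx1]; exact (e.symm (QuaternionGroup.a 1)).2
  obtain ⟨C, hC⟩ : ∃ C : Subgroup G, C = Subgroup.zpowers x1 := ⟨_, rfl⟩
  have hCP : C ≤ P := by rw [hC]; exact Subgroup.zpowers_le.mpr hx1P
  have hF1 : ∀ i : ZMod (2 * N), ((e.symm (QuaternionGroup.a i) : P) : G) = x1 ^ i.val := by
    intro i
    have h1 : (QuaternionGroup.a i : QuaternionGroup N) = QuaternionGroup.a 1 ^ i.val := by
      rw [QuaternionGroup.a_one_pow, ZMod.natCast_zmod_val]
    rw [h1, map_pow, Subgroup.coe_pow, hx1]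
  have hF2 : ∀ y (hy : y ∈ P) (i : ZMod (2 * N)), e ⟨y, hy⟩ = QuaternionGroup.a i → y ∈ C := by
    intro y hy i hi
    have h1 : (⟨y, hy⟩ : P) = e.symm (QuaternionGroup.a i) := by
      rw [← hi, MulEquiv.symm_apply_apply]
    have h2 : y = x1 ^ i.val := by rw [← hF1 i, ← h1]
    rw [h2, hC]; exact Subgroup.pow_mem _ (Subgroup.mem_zpowers x1) _
  have hF3 : ∀ x ∈ P, ∀ y ∈ P, x ∉ C → y ∉ C → x⁻¹ * y ∈ C := by
    intro x hx y hy hxC hyC
    rcases hex : e ⟨x, hx⟩ with i | i
    · exact absurd (hF2 x hx i hex) hxC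
    rcases hey : e ⟨y, hy⟩ with j | j
    · exact absurd (hF2 y hy j hey) hyC
    apply hF2 (x⁻¹ * y) (P.mul_mem (P.inv_mem hx) hy) (j - i)
    have h1 : (⟨x⁻¹ * y, P.mul_mem (P.inv_mem hx) hy⟩ : P) = (⟨x, hx⟩ : P)⁻¹ * ⟨y, hy⟩ := rfl
    rw [h1, map_mul, map_inv, hex, hey, inv_mul_eq_iff_eq_mul, QuaternionGroup.xa_mul_a]
    congr 1; ring
  have hcardP : Nat.card P = 4 * N := by
    rw [Nat.card_congr e.toEquiv, Nat.card_eq_fintype_card, QuaternionGroup.card]
  have hF4 : ∀ c ∈ C, (orderOf c).Coprime (Nat.card A) := by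
    intro c hc
    have h1 : orderOf c ∣ Nat.card P := by
      have h3 := orderOf_dvd_natCard (⟨c, hCP hc⟩ : P)
      rwa [← Subgroup.orderOf_coe] at h3
    rw [hcardP] at h1
    exact Nat.Coprime.coprime_dvd_left h1 hcop.symm
  have hx1ord : orderOf x1 = 2 * N := by
    rw [hx1, Subgroup.orderOf_coe, MulEquiv.orderOf_eq, QuaternionGroup.orderOf_a_one]
  have hconjord : ∀ a : G, orderOf (a * x1 * a⁻¹) = orderOf x1 := fun a =>
    (MulAut.conj a).orderOf_eq x1
  have hinv_of : (∀ a ∈ A, a * x1 * a⁻¹ ∈ C) → ∀ a ∈ A, ∀ x ∈ C, a * x * a⁻¹ ∈ C := by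
    intro h a ha x hx
    rw [hC] at hx
    obtain ⟨k, rfl⟩ := Subgroup.mem_zpowers_iff.mp hx
    have h1 : a * x1 ^ k * a⁻¹ = (a * x1 * a⁻¹) ^ k := by
      rw [conj_zpow]
    rw [h1]; exact Subgroup.zpow_mem _ (h a ha) k
  have hconj_in : ∀ a ∈ A, a * x1 * a⁻¹ ∈ C := by
    rcases hN with rfl | hN4
    · -- `N = 2`: the quaternion group of order `8`
      obtain ⟨x2, hx2⟩ : ∃ x2 : G, x2 = ((e.symm (QuaternionGroup.xa 0) : P) : G) := ⟨_, rfl⟩
      obtain ⟨x3, hx3⟩ : ∃ x3 : G, x3 = ((e.symm (QuaternionGroup.xa 1) : P) : G) := ⟨_, rfl⟩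
      let act : MulAction A (Subgroup G) :=
        MulAction.compHom (Subgroup G) ((MulAut.conj (G := G)).comp A.subtype)
      have hsmulC : ∀ a : A, a • C = Subgroup.zpowers ((a : G) * x1 * (a : G)⁻¹) := by
        intro a
        have h1 : a • C = C.map (MulAut.conj (a : G)).toMonoidHom := rfl
        rw [h1, hC, MonoidHom.map_zpowers]
        rfl
      have hcases : ∀ i : ZMod (2 * 2), i = 0 ∨ i = 1 ∨ i = 0 + 2 ∨ i = 1 + 2 := by decide
      have hxainv : ∀ i : ZMod (2 * 2),
          (QuaternionGroup.xa (i + 2) : QuaternionGroup 2) = (QuaternionGroup.xa i)⁻¹ := by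
        intro i
        rw [eq_inv_iff_mul_eq_one, QuaternionGroup.xa_mul_xa, QuaternionGroup.one_def]
        congr 1
        have h4 : ((2 : ℕ) : ZMod (2 * 2)) + i - (i + 2) = 0 := by
          push_cast; ring
        exact h4
      have horb : MulAction.orbit A C ⊆
          (({C, Subgroup.zpowers x2, Subgroup.zpowers x3} : Finset (Subgroup G)) :
            Set (Subgroup G)) := by
        rintro K ⟨a, rfl⟩
        simp only [Finset.coe_insert, Finset.coe_singleton, Set.mem_insert_iff,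
          Set.mem_singleton_iff]
        have hy : (a : G) * x1 * (a : G)⁻¹ ∈ P := hn a a.2 x1 hx1P
        rw [hsmulC]
        rcases hey : e ⟨(a : G) * x1 * (a : G)⁻¹, hy⟩ with i | i
        · left
          have hmem := hF2 _ hy i hey
          rw [hC] at hmem ⊢
          apply Subgroup.eq_of_le_of_card_ge (Subgroup.zpowers_le.mpr hmem)
          rw [Nat.card_zpowers, Nat.card_zpowers, hconjord]
        · right
          have h1 : (a : G) * x1 * (a : G)⁻¹ = ((e.symm (QuaternionGroup.xa i) : P) : G) := by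
            rw [← hey, MulEquiv.symm_apply_apply]
          rw [h1]
          rcases hcases i with rfl | rfl | rfl | rfl
          · left; rw [hx2]
          · right; rw [hx3]
          · left; rw [hxainv, map_inv, Subgroup.coe_inv, Subgroup.zpowers_inv, hx2]
          · right; rw [hxainv, map_inv, Subgroup.coe_inv, Subgroup.zpowers_inv, hx3]
      have hidx : (MulAction.stabilizer A C).index ≤ 3 := by
        rw [MulAction.index_stabilizer]
        calc (MulAction.orbit A C).ncard
            ≤ Set.ncard ((({C, Subgroup.zpowers x2, Subgroup.zpowers x3} :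
                Finset (Subgroup G)) : Set (Subgroup G))) :=
              Set.ncard_le_ncard horb (Finset.finite_toSet _)
          _ = Finset.card ({C, Subgroup.zpowers x2, Subgroup.zpowers x3} :
                Finset (Subgroup G)) := Set.ncard_coe_finset _
          _ ≤ 3 := Finset.card_le_three
      have hdvd : (MulAction.stabilizer A C).index ∣ Nat.card A := Subgroup.index_dvd_card _
      have hne3 := index_ne_three_of_perfect_odd hperf hodd (MulAction.stabilizer A C)
      have hoddidx : Odd (MulAction.stabilizer A C).index := hodd.of_dvd_nat hdvd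
      have hone : (MulAction.stabilizer A C).index = 1 := by
        obtain ⟨k, hk⟩ := hoddidx
        omega
      have htop : MulAction.stabilizer A C = ⊤ := Subgroup.index_eq_one.mp hone
      intro a ha
      have hmem : (⟨a, ha⟩ : A) ∈ MulAction.stabilizer A C := by rw [htop]; trivial
      have h2 : (⟨a, ha⟩ : A) • C = C := MulAction.mem_stabilizer_iff.mp hmem
      rw [hsmulC] at h2
      have h3 : Subgroup.zpowers (a * x1 * a⁻¹) = C := h2
      rw [← h3]
      exact Subgroup.mem_zpowers _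
    · intro a ha
      have hy : a * x1 * a⁻¹ ∈ P := hn a ha x1 hx1P
      rcases hey : e ⟨a * x1 * a⁻¹, hy⟩ with i | i
      · exact hF2 _ hy i hey
      · exfalso
        have h2 : orderOf (e ⟨a * x1 * a⁻¹, hy⟩) = 2 * N := by
          rw [MulEquiv.orderOf_eq, ← Subgroup.orderOf_coe, ← hx1ord]
          exact hconjord a
        rw [hey, QuaternionGroup.orderOf_xa] at h2
        omega
  have hCcyc : IsCyclic C := by rw [hC]; infer_instance
  have hCc := perfect_centralizes_cyclic A C (hinv_of hconj_in) hperf hCcyc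
  exact centralizes_of_index_two A P C hn hCc hF3 hF4

/-- **S4118-Q8**. -/
theorem stQ8 : Cfsg.Agent.H72.Zas.StQ8.{u} := by
  intro G _ _ A P hn hperf hcase
  rcases hcase with hcyc | ⟨hodd, n, hn1, ⟨e⟩⟩
  · exact perfect_centralizes_cyclic A P hn hperf hcyc
  · refine perfect_centralizes_quaternion A P hn hperf hodd (2 ^ n) ?_ ?_ e
    · rcases Nat.eq_or_lt_of_le hn1 with h | h
      · left; rw [← h]; rfl
      · right
        calc 4 = 2 ^ 2 := by norm_num
          _ ≤ 2 ^ n := Nat.pow_le_pow_right (by norm_num) h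
    · have h4 : 4 * 2 ^ n = 2 ^ (n + 2) := by ring
      rw [h4]
      exact Nat.Coprime.pow_right _ (Nat.coprime_two_right.mpr hodd)

end Cfsg.Agent.H36.Zas
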