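import Mathlib

/-!
# S3592-A (helper36, for helper93's team project S3592)

If the Sylow `p`-subgroups of `G` have order `p`, the number of elements of order `p` is
`(p - 1)` times the number of Sylow `p`-subgroups.
-/

set_option autoImplicit false

namespace Cfsg.Agent.H36.Nse

open Subgroup

theorem card_orderOf_eq_prime {G : Type*} [Group G] [Finite G] (p : ℕ) [Fact p.Prime]
    (hp : ∀ P : Sylow p G, Nat.card (P : Subgroup G) = p) :
    Nat.card {g : G // orderOf g = p} = (p - 1) * Nat.card (Sylow p G) := by
  classical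
  have hpp : p.Prime := Fact.out
  -- a subgroup generated by an element of order `p` inside a Sylow subgroup is that subgroup
  have hzp : ∀ g : G, orderOf g = p → ∀ P : Sylow p G, g ∈ (P : Subgroup G) →
      zpowers g = (P : Subgroup G) := by
    intro g hg P hgP
    refine Subgroup.eq_of_le_of_card_ge ((zpowers_le).mpr hgP) ?_
    rw [hp P, Nat.card_zpowers, hg]
  have hex : ∀ g : G, orderOf g = p → ∃ P : Sylow p G, g ∈ (P : Subgroup G) := by
    intro g hg
    have hz : IsPGroup p (zpowers g) :=
      IsPGroup.of_card (n := 1) (by rw [Nat.card_zpowers, hg, pow_one])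
    obtain ⟨P, hP⟩ := hz.exists_le_sylow
    exact ⟨P, hP (mem_zpowers g)⟩
  have horder : ∀ P : Sylow p G, ∀ g : G, g ∈ (P : Subgroup G) → g ≠ 1 → orderOf g = p := by
    intro P g hg hne
    have h1 : orderOf g ∣ p := by
      rw [← hp P]
      exact Subgroup.orderOf_dvd_natCard _ hg
    rcases (Nat.dvd_prime hpp).mp h1 with h | h
    · exact absurd (orderOf_eq_one_iff.mp h) hne
    · exact h
  let e : {g : G // orderOf g = p} ≃ (Σ P : Sylow p G, {g : G // g ∈ (P : Subgroup G) ∧ g ≠ 1}) :=
    { toFun := fun g => ⟨Classical.choose (hex g.1 g.2), ⟨g.1, Classical.choose_spec (hex g.1 g.2),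
        by
          intro h
          have := g.2
          rw [h, orderOf_one] at this
          exact hpp.one_lt.ne this⟩⟩
      invFun := fun x => ⟨x.2.1, horder x.1 x.2.1 x.2.2.1 x.2.2.2⟩
      left_inv := fun g => rfl
      right_inv := by
        rintro ⟨P, ⟨g, hgP, hne⟩⟩
        have hg : orderOf g = p := horder P g hgP hne
        have hP' : Classical.choose (hex g hg) = P := by
          apply Sylow.ext
          rw [← hzp g hg _ (Classical.choose_spec (hex g hg)), hzp g hg P hgP]
        have key : ∀ (P' : Sylow p G) (h : g ∈ (P' : Subgroup G)), P' = P →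
            (⟨P', ⟨g, h, hne⟩⟩ : Σ P : Sylow p G, {g : G // g ∈ (P : Subgroup G) ∧ g ≠ 1})
              = ⟨P, ⟨g, hgP, hne⟩⟩ := by
          intro P' h hPP
          subst hPP
          rfl
        exact key (Classical.choose (hex g hg)) (Classical.choose_spec (hex g hg)) hP' }
  rw [Nat.card_congr e]
  have : Fintype (Sylow p G) := Fintype.ofFinite _
  rw [Nat.card_sigma]
  have hfib : ∀ P : Sylow p G, Nat.card {g : G // g ∈ (P : Subgroup G) ∧ g ≠ 1} = p - 1 := by
    intro P
    have h1 : Nat.card {g : G // g ∈ (P : Subgroup G) ∧ g ≠ 1}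
        = Set.ncard (((P : Subgroup G) : Set G) \ {1}) := by
      rw [← Nat.card_coe_set_eq]
      rfl
    rw [h1, Set.ncard_sdiff_singleton_of_mem (Subgroup.one_mem _), ← Nat.card_coe_set_eq]
    have h2 : Nat.card ↥(((P : Subgroup G) : Set G)) = p := hp P
    rw [h2]
  simp only [hfib]
  rw [Finset.sum_const, Finset.card_univ, smul_eq_mul, Nat.card_eq_fintype_card, mul_comm]

end Cfsg.Agent.H36.Nse

section check
example {G : Type*} [Group G] [Finite G] (p : ℕ) [Fact p.Prime]
    (hp : ∀ P : Sylow p G, Nat.card (P : Subgroup G) = p) :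
    Nat.card {g : G // orderOf g = p} = (p - 1) * Nat.card (Sylow p G) :=
  Cfsg.Agent.H36.Nse.card_orderOf_eq_prime p hp
end check

#print axioms Cfsg.Agent.H36.Nse.card_orderOf_eq_prime
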