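import Mathlib

/-!
# S3592-C (helper36, for helper93's team project S3592)

In a group of order 7920 whose Sylow 11- and 5-normalizers have orders 55 and 20 there is no
element of order `11 * b`, `b ≠ 11` prime.
-/

set_option autoImplicit false

namespace Cfsg.Agent.H36.Nse

open Subgroup

/-- If `p ^ 2` does not divide the order of `G`, an element commuting with an element of order
`p` normalizes a Sylow `p`-subgroup. -/
theorem exists_sylow_normalizer_of_commute {G : Type*} [Group G] [Finite G] (p : ℕ)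
    [Fact p.Prime] (hp2 : ¬ p ^ 2 ∣ Nat.card G) (g y : G) (hy : orderOf y = p)
    (hcomm : Commute g y) :
    ∃ Q : Sylow p G, g ∈ normalizer ((Q : Subgroup G) : Set G) := by
  have hp : p.Prime := Fact.out
  have hzc : Nat.card (zpowers y) = p := by rw [Nat.card_zpowers, hy]
  have hzp : IsPGroup p (zpowers y) := IsPGroup.of_card (n := 1) (by rw [hzc, pow_one])
  obtain ⟨Q, hQ⟩ := hzp.exists_le_sylow
  obtain ⟨k, hk⟩ := IsPGroup.iff_card.mp Q.isPGroup'
  have hdvd : p ^ k ∣ Nat.card G := by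
    rw [← hk]; exact Subgroup.card_subgroup_dvd_card _
  have hk1 : k ≤ 1 := by
    by_contra hcon
    exact hp2 ((pow_dvd_pow p (by omega : 2 ≤ k)).trans hdvd)
  have hle : Nat.card (zpowers y) ≤ Nat.card (Q : Subgroup G) := Subgroup.card_le_of_le hQ
  have hQc : Nat.card (Q : Subgroup G) = p := by
    rw [hk]
    interval_cases k
    · exfalso
      rw [hk, hzc, pow_zero] at hle
      exact absurd hle (by have := hp.one_lt; omega)
    · rw [pow_one]
  have hEq : zpowers y = (Q : Subgroup G) :=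
    Subgroup.eq_of_le_of_card_ge hQ (by rw [hQc, hzc])
  refine ⟨Q, ?_⟩
  have hcent : ∀ h ∈ (Q : Subgroup G), g * h * g⁻¹ = h := by
    intro h hh
    rw [← hEq] at hh
    obtain ⟨m, rfl⟩ := hh
    have hc : Commute g (y ^ m) := hcomm.zpow_right m
    rw [hc.eq, mul_inv_cancel_right]
  rw [Subgroup.mem_normalizer_iff]
  intro h
  constructor
  · intro hh
    have : g * h * g⁻¹ = h := hcent h hh
    change g * h * g⁻¹ ∈ (Q : Subgroup G)
    rw [this]; exact hh
  · intro hh
    have hh' : g * h * g⁻¹ ∈ (Q : Subgroup G) := hh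
    have h1 := hcent _ hh'
    -- `g` commutes with `g h g⁻¹`, so `h = g h g⁻¹`
    have h2 : h = g * h * g⁻¹ := by
      have : g⁻¹ * (g * (g * h * g⁻¹) * g⁻¹) * g = g⁻¹ * (g * h * g⁻¹) * g := by rw [h1]
      have e1 : g⁻¹ * (g * (g * h * g⁻¹) * g⁻¹) * g = g * h * g⁻¹ := by group
      have e2 : g⁻¹ * (g * h * g⁻¹) * g = h := by group
      rw [e1, e2] at this
      exact this.symm
    change h ∈ (Q : Subgroup G)
    rw [h2]; exact hh'

theorem no_order_eleven_mul {G : Type*} [Group G] [Finite G] (hG : Nat.card G = 7920)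
    (hN11 : ∀ P : Sylow 11 G, Nat.card (normalizer ((P : Subgroup G) : Set G)) = 55)
    (hN5 : ∀ P : Sylow 5 G, Nat.card (normalizer ((P : Subgroup G) : Set G)) = 20)
    (b : ℕ) (hb : b.Prime) (hb11 : b ≠ 11) : ¬ ∃ g : G, orderOf g = 11 * b := by
  rintro ⟨g, hg⟩
  have : Fact (Nat.Prime 11) := ⟨by norm_num⟩
  have : Fact (Nat.Prime 5) := ⟨by norm_num⟩
  have hx : orderOf (g ^ b) = 11 := by
    rw [orderOf_pow' g hb.ne_zero, hg, Nat.gcd_mul_left_left,
      Nat.mul_div_cancel _ hb.pos]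
  obtain ⟨P, hP⟩ := exists_sylow_normalizer_of_commute 11 (by rw [hG]; norm_num) g (g ^ b) hx
    ((Commute.refl g).pow_right b)
  have h1 : orderOf g ∣ 55 := by
    rw [← hN11 P]
    exact Subgroup.orderOf_dvd_natCard _ hP
  rw [hg] at h1
  have hb5 : b ∣ 5 := Nat.dvd_of_mul_dvd_mul_left (by norm_num : 0 < 11) (by simpa using h1)
  have hb5' : b = 5 := (Nat.prime_dvd_prime_iff_eq hb (by norm_num)).mp hb5
  subst hb5'
  have hy : orderOf (g ^ 11) = 5 := by
    rw [orderOf_pow' g (by norm_num), hg]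
    norm_num
  obtain ⟨Q, hQ⟩ := exists_sylow_normalizer_of_commute 5 (by rw [hG]; norm_num) g (g ^ 11) hy
    ((Commute.refl g).pow_right 11)
  have h2 : orderOf g ∣ 20 := by
    rw [← hN5 Q]
    exact Subgroup.orderOf_dvd_natCard _ hQ
  rw [hg] at h2
  revert h2
  norm_num

end Cfsg.Agent.H36.Nse

section check
open Subgroup
example {G : Type*} [Group G] [Finite G] (hG : Nat.card G = 7920)
    (hN11 : ∀ P : Sylow 11 G, Nat.card (normalizer ((P : Subgroup G) : Set G)) = 55)
    (hN5 : ∀ P : Sylow 5 G, Nat.card (normalizer ((P : Subgroup G) : Set G)) = 20)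
    (b : ℕ) (hb : b.Prime) (hb11 : b ≠ 11) : ¬ ∃ g : G, orderOf g = 11 * b :=
  Cfsg.Agent.H36.Nse.no_order_eleven_mul hG hN11 hN5 b hb hb11
end check

#print axioms Cfsg.Agent.H36.Nse.no_order_eleven_mul
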