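import Mathlib
import Cfsg.Agent.H17.TgDefs

set_option autoImplicit false

/-!
# TG-FOUR (piece of helper17's team project S1904)

An odd-order group of automorphisms acting nontrivially on an invariant subgroup `W` of
exponent 2 and order at most 4: `W` is a four-group, every element of `A` is trivial or
fixed-point-free on `W ∖ 1`, `A` is transitive on `W ∖ 1`, and `W` has no proper nontrivial
`A`-invariant subgroup.
-/

namespace Cfsg.Agent.H36.Tg

open Cfsg Cfsg.Agent.H17.Tg

universe u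

/-- In a subgroup of exponent 2 and order at most 4, two distinct non-identity elements `u`, `v`
give all the elements: `1, u, v, u * v`. -/
theorem four_elts {X : Type u} [Group X] [Finite X] (W : Subgroup X)
    (hW2 : ∀ w ∈ W, w ^ 2 = 1) (hc : Nat.card W ≤ 4) {u v : X} (hu : u ∈ W) (hv : v ∈ W)
    (hu1 : u ≠ 1) (hv1 : v ≠ 1) (huv : u ≠ v) :
    Nat.card W = 4 ∧ ∀ x ∈ W, x = 1 ∨ x = u ∨ x = v ∨ x = u * v := by
  classical
  have hv2 : v * v = 1 := by rw [← pow_two]; exact hW2 v hv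
  have huv1 : u * v ≠ 1 := by
    intro h
    apply huv
    have h1 : u = v⁻¹ := eq_inv_of_mul_eq_one_left h
    rw [h1]
    exact inv_eq_of_mul_eq_one_left hv2
  have huvu : u * v ≠ u := by
    intro h; apply hv1; simpa using h
  have huvv : u * v ≠ v := by
    intro h; apply hu1; simpa using h
  have h1 : (1 : X) ∉ ({u, v, u * v} : Finset X) := by
    simp only [Finset.mem_insert, Finset.mem_singleton, not_or]
    exact ⟨hu1.symm, hv1.symm, huv1.symm⟩
  have h2 : u ∉ ({v, u * v} : Finset X) := by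
    simp only [Finset.mem_insert, Finset.mem_singleton, not_or]
    exact ⟨huv, huvu.symm⟩
  have h3 : v ∉ ({u * v} : Finset X) := by
    simp only [Finset.mem_singleton]
    exact huvv.symm
  have hs : ({1, u, v, u * v} : Finset X).card = 4 := by
    rw [Finset.card_insert_of_notMem h1, Finset.card_insert_of_notMem h2,
      Finset.card_insert_of_notMem h3, Finset.card_singleton]
  have hsub : (({1, u, v, u * v} : Finset X) : Set X) ⊆ (W : Set X) := by
    intro x hx
    simp only [Finset.coe_insert, Finset.coe_singleton, Set.mem_insert_iff,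
      Set.mem_singleton_iff] at hx
    rcases hx with rfl | rfl | rfl | rfl
    · exact W.one_mem
    · exact hu
    · exact hv
    · exact W.mul_mem hu hv
  have hfin : (W : Set X).Finite := Set.toFinite _
  have hn : Nat.card W = (W : Set X).ncard := rfl
  have h4 : 4 ≤ (W : Set X).ncard := by
    have h := Set.ncard_le_ncard hsub hfin
    rwa [Set.ncard_coe_finset, hs] at h
  have heq : (({1, u, v, u * v} : Finset X) : Set X) = (W : Set X) :=
    Set.eq_of_subset_of_ncard_le hsub (by rw [Set.ncard_coe_finset, hs]; omega) hfin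
  refine ⟨by omega, ?_⟩
  intro x hx
  have hx' : x ∈ (({1, u, v, u * v} : Finset X) : Set X) := by rw [heq]; exact hx
  simpa using hx'

/-- An automorphism of odd order whose square fixes `w` fixes `w`. -/
theorem odd_fix {X : Type u} [Group X] [Finite X] (A : Subgroup (MulAut X))
    (hodd : Odd (Nat.card A)) {ψ : MulAut X} (hψ : ψ ∈ A) (w : X) (h : ψ (ψ w) = w) :
    ψ w = w := by
  have key : ∀ (w' : X), ψ (ψ w') = w' → ∀ n : ℕ, (ψ ^ (2 * n)) w' = w' := by
    intro w' h' n
    induction n with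
    | zero => simp
    | succ n ih =>
      have e : ψ ^ (2 * (n + 1)) = ψ ^ (2 * n) * (ψ * ψ) := by
        rw [mul_add, pow_add, mul_one, pow_two]
      rw [e, MulAut.mul_apply, MulAut.mul_apply, h', ih]
  have ho : Odd (orderOf ψ) := by
    have h1 : orderOf (⟨ψ, hψ⟩ : A) ∣ Nat.card A := orderOf_dvd_natCard _
    rw [Subgroup.orderOf_mk] at h1
    exact Odd.of_dvd_nat hodd h1
  obtain ⟨k, hk⟩ := ho
  have h2 : ψ ^ (2 * k + 1) = 1 := by rw [← hk]; exact pow_orderOf_eq_one ψ
  have h3 : (ψ ^ (2 * k + 1)) w = ψ w := by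
    rw [pow_succ, MulAut.mul_apply]
    exact key (ψ w) (by rw [h]) k
  rw [h2] at h3
  exact h3.symm

/-- **TG-FOUR.** -/
theorem four : StFour.{u} := by
  intro X _ _ A hodd W hinv hW2 hc hex
  obtain ⟨φ, hφ, a, ha, hφa⟩ := hex
  have ha1 : a ≠ 1 := by rintro rfl; exact hφa (map_one φ)
  have hb : φ a ∈ W := hinv φ hφ a ha
  have hb1 : φ a ≠ 1 := fun h => ha1 (φ.injective (h.trans (map_one φ).symm))
  have hab : a ≠ φ a := fun h => hφa h.symm
  obtain ⟨hcard, -⟩ := four_elts W hW2 hc ha hb ha1 hb1 hab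
  have P2 : ∀ ψ ∈ A, (∀ w ∈ W, ψ w = w) ∨ (∀ w ∈ W, w ≠ 1 → ψ w ≠ w) := by
    intro ψ hψ
    by_cases h : ∀ w ∈ W, w ≠ 1 → ψ w ≠ w
    · exact Or.inr h
    · left
      push Not at h
      obtain ⟨w0, hw0, hw01, hψw0⟩ := h
      intro x hx
      by_cases hx1 : x = 1
      · rw [hx1]; exact map_one ψ
      by_cases hxw : x = w0
      · rw [hxw]; exact hψw0
      have hψx : ψ x ∈ W := hinv ψ hψ x hx
      rcases (four_elts W hW2 hc hw0 hx hw01 hx1 (Ne.symm hxw)).2 (ψ x) hψx with
        h1 | h1 | h1 | h1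
      · exact absurd (ψ.injective (h1.trans (map_one ψ).symm)) hx1
      · exact absurd (ψ.injective (h1.trans hψw0.symm)) hxw
      · exact h1
      · apply odd_fix A hodd hψ x
        rw [h1, map_mul, hψw0, h1, ← mul_assoc, ← pow_two, hW2 w0 hw0, one_mul]
  have hφmove : ∀ w ∈ W, w ≠ 1 → φ w ≠ w := by
    rcases P2 φ hφ with h | h
    · exact absurd (h a ha) hφa
    · exact h
  have P4 : ∀ w ∈ W, w ≠ 1 → ∀ w' ∈ W, w' ≠ 1 → ∃ ψ ∈ A, ψ w = w' := by
    intro w hw hw1 w' hw' hw'1
    by_cases hww : w = w'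
    · exact ⟨1, A.one_mem, by rw [hww]; rfl⟩
    have h1 := hφmove w hw hw1
    have hφw : φ w ∈ W := hinv φ hφ w hw
    have hφw1 : φ w ≠ 1 := fun h => hw1 (φ.injective (h.trans (map_one φ).symm))
    rcases (four_elts W hW2 hc hw hw' hw1 hw'1 hww).2 (φ w) hφw with h2 | h2 | h2 | h2
    · exact absurd h2 hφw1
    · exact absurd h2 h1
    · exact ⟨φ, hφ, h2⟩
    · refine ⟨φ * φ, A.mul_mem hφ hφ, ?_⟩
      rw [MulAut.mul_apply]
      have hφφw : φ (φ w) ∈ W := hinv φ hφ _ hφw
      rcases (four_elts W hW2 hc hw hw' hw1 hw'1 hww).2 (φ (φ w)) hφφw with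
        h3 | h3 | h3 | h3
      · exact absurd (φ.injective (h3.trans (map_one φ).symm)) hφw1
      · exact absurd (odd_fix A hodd hφ w h3) h1
      · exact h3
      · exact absurd (h3.trans h2.symm) (hφmove (φ w) hφw hφw1)
  refine ⟨hcard, P2, fun w hw hw1 => ⟨φ, hφ, hφmove w hw hw1⟩, P4, ?_⟩
  intro W' hW'W hW'inv
  by_cases hbot : ∀ x ∈ W', x = 1
  · exact Or.inl ((Subgroup.eq_bot_iff_forall W').mpr hbot)
  · right
    push Not at hbot
    obtain ⟨x, hx, hx1⟩ := hbot
    apply le_antisymm hW'W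
    intro y hy
    by_cases hy1 : y = 1
    · rw [hy1]; exact W'.one_mem
    obtain ⟨ψ, hψ, hψx⟩ := P4 x (hW'W hx) hx1 y hy hy1
    rw [← hψx]; exact hW'inv ψ hψ x hx

example : Cfsg.Agent.H17.Tg.StFour.{u} := four

end Cfsg.Agent.H36.Tg

#print axioms Cfsg.Agent.H36.Tg.four
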