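import Mathlib
import Cfsg.Agent.H4.TnDefs

/-!
# TN-NT (S3805 team project, lead helper4): the Pell-type arithmetic

`8 m^2 = 9 e (e+1)` with `1 ≤ e` forces `8 ≤ e` and `e % 3 ≠ 1`.
-/

set_option autoImplicit false

namespace Cfsg.Agent.H36.Tn

theorem nt_aux_sq (y : ℤ) : y ^ 2 % 3 ≠ 2 := by
  obtain ⟨t, s, hs0, hs3, rfl⟩ : ∃ t s : ℤ, 0 ≤ s ∧ s < 3 ∧ y = 3 * t + s :=
    ⟨y / 3, y % 3, by omega, by omega, by omega⟩
  interval_cases s
  · have : (3 * t + 0) ^ 2 = 3 * (3 * t ^ 2) := by ring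
    omega
  · have : (3 * t + 1) ^ 2 = 3 * (3 * t ^ 2 + 2 * t) + 1 := by ring
    omega
  · have : (3 * t + 2) ^ 2 = 3 * (3 * t ^ 2 + 4 * t + 1) + 1 := by ring
    omega

theorem nt_aux_sq8 (y : ℤ) : y ^ 2 % 8 ≠ 7 := by
  obtain ⟨t, s, hs0, hs3, rfl⟩ : ∃ t s : ℤ, 0 ≤ s ∧ s < 4 ∧ y = 4 * t + s :=
    ⟨y / 4, y % 4, by omega, by omega, by omega⟩
  interval_cases s
  · have : (4 * t + 0) ^ 2 = 8 * (2 * t ^ 2) := by ring
    omega
  · have : (4 * t + 1) ^ 2 = 8 * (2 * t ^ 2 + t) + 1 := by ring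
    omega
  · have : (4 * t + 2) ^ 2 = 8 * (2 * t ^ 2 + 2 * t) + 4 := by ring
    omega
  · have : (4 * t + 3) ^ 2 = 8 * (2 * t ^ 2 + 3 * t + 1) + 1 := by ring
    omega

theorem nt_core (e m : ℤ) (he : 1 ≤ e) (h : 8 * m ^ 2 = 9 * e * (e + 1)) :
    8 ≤ e ∧ e % 3 ≠ 1 := by
  have h' : 8 * m ^ 2 = 9 * (e * (e + 1)) := by linear_combination h
  have h3 : (3 : ℤ) ∣ m ^ 2 := by omega
  have h3m : (3 : ℤ) ∣ m := Int.Prime.dvd_pow' Nat.prime_three h3
  obtain ⟨n, rfl⟩ := h3m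
  have h8 : 8 * n ^ 2 = e * (e + 1) := by
    have : (9 : ℤ) * (8 * n ^ 2) = 9 * (e * (e + 1)) := by linear_combination h'
    exact mul_left_cancel₀ (by norm_num) this
  obtain ⟨q, r, hr0, hr8, rfl⟩ : ∃ q r : ℤ, 0 ≤ r ∧ r < 8 ∧ e = 8 * q + r :=
    ⟨e / 8, e % 8, by omega, by omega, by omega⟩
  interval_cases r
  · -- r = 0 : (8q+1) * q = n^2
    have hq : (8 * q + 1) * q = n ^ 2 := by
      have : (8 : ℤ) * ((8 * q + 1) * q) = 8 * n ^ 2 := by linear_combination (-1 : ℤ) * h8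
      exact mul_left_cancel₀ (by norm_num) this
    have hcop : IsCoprime (8 * q + 1) q := ⟨1, -8, by ring⟩
    obtain ⟨y, hy⟩ := Int.sq_of_isCoprime hcop hq
    have hq1 : 1 ≤ q := by omega
    rcases hy with hy | hy
    · have hy2 := nt_aux_sq y
      constructor
      · omega
      · omega
    · have := sq_nonneg y
      omega
  · exfalso
    have : (8 * q + 1) * (8 * q + 1 + 1) = 8 * (8 * q ^ 2 + 3 * q) + 2 := by ring
    omega
  · exfalso
    have : (8 * q + 2) * (8 * q + 2 + 1) = 8 * (8 * q ^ 2 + 5 * q) + 6 := by ring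
    omega
  · exfalso
    have : (8 * q + 3) * (8 * q + 3 + 1) = 8 * (8 * q ^ 2 + 7 * q + 1) + 4 := by ring
    omega
  · exfalso
    have : (8 * q + 4) * (8 * q + 4 + 1) = 8 * (8 * q ^ 2 + 9 * q + 2) + 4 := by ring
    omega
  · exfalso
    have : (8 * q + 5) * (8 * q + 5 + 1) = 8 * (8 * q ^ 2 + 11 * q + 3) + 6 := by ring
    omega
  · exfalso
    have : (8 * q + 6) * (8 * q + 6 + 1) = 8 * (8 * q ^ 2 + 13 * q + 5) + 2 := by ring
    omega
  · -- r = 7 : (8q+7) * (q+1) = n^2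
    exfalso
    have hq : (8 * q + 7) * (q + 1) = n ^ 2 := by
      have : (8 : ℤ) * ((8 * q + 7) * (q + 1)) = 8 * n ^ 2 := by linear_combination (-1 : ℤ) * h8
      exact mul_left_cancel₀ (by norm_num) this
    have hcop : IsCoprime (8 * q + 7) (q + 1) := ⟨-1, 8, by ring⟩
    obtain ⟨y, hy⟩ := Int.sq_of_isCoprime hcop hq
    rcases hy with hy | hy
    · have hy2 := nt_aux_sq8 y
      omega
    · have := sq_nonneg y
      omega

/-- TN-NT: the exact piece statement. -/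
theorem nt : Cfsg.Agent.H4.Tn.StNT := fun e m he h => nt_core e m he h

end Cfsg.Agent.H36.Tn

example : Cfsg.Agent.H4.Tn.StNT := Cfsg.Agent.H36.Tn.nt
#print axioms Cfsg.Agent.H36.Tn.nt
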