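import Mathlib
import Cfsg.Agent.H4.TnDefs
import Cfsg.Agent.H4.Chars
import Cfsg.Agent.H82.Irr

/-!
# TN-TWIST (S3805 team project, lead helper4): linear times irreducible is irreducible
-/

set_option autoImplicit false

namespace Cfsg.Agent.H36.Tn

open scoped ComplexConjugate

universe u

/-- A linear irreducible character has values of absolute value one:
`l g * conj (l g) = 1`. -/
theorem linear_mul_conj {G : Type u} [Group G] [Finite G] (l : Cfsg.IrrCharacter G)
    (h1 : l.1 1 = 1) (g : G) : l.1 g * conj (l.1 g) = 1 := by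
  rw [← Cfsg.Agent.H82.irr_inv l g, ← Cfsg.Agent.H82.irr_linear_mul l h1 g g⁻¹, mul_inv_cancel, h1]

/-- TN-TWIST: the exact piece statement. -/
theorem twist : Cfsg.Agent.H4.Tn.StTwist.{u} := by
  intro G _ _ l χ h1
  classical
  let _ : Fintype G := Fintype.ofFinite G
  have hchar : Cfsg.IsCharacter G (l.1 * χ.1) :=
    Cfsg.Agent.H4.isCharacter_mul (Cfsg.Agent.H4.isCharacter_of_isIrrCharacter l.2)
      (Cfsg.Agent.H4.isCharacter_of_isIrrCharacter χ.2)
  have hnorm : Cfsg.classInner (l.1 * χ.1) (l.1 * χ.1) = 1 := by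
    have hχ := Cfsg.Agent.H4.irr_inner_self χ
    unfold Cfsg.classInner at hχ ⊢
    rw [← hχ]
    congr 1
    refine Finset.sum_congr rfl fun g _ => ?_
    have hl := linear_mul_conj l h1 g
    simp only [Pi.mul_apply, map_mul]
    calc l.1 g * χ.1 g * (conj (l.1 g) * conj (χ.1 g))
        = (l.1 g * conj (l.1 g)) * (χ.1 g * conj (χ.1 g)) := by ring
      _ = χ.1 g * conj (χ.1 g) := by rw [hl, one_mul]
  exact ⟨⟨l.1 * χ.1, Cfsg.Agent.H4.isIrrCharacter_of_norm_one hchar hnorm⟩, fun g => rfl⟩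

end Cfsg.Agent.H36.Tn

universe u in
example : Cfsg.Agent.H4.Tn.StTwist.{u} := Cfsg.Agent.H36.Tn.twist.{u}
#print axioms Cfsg.Agent.H36.Tn.twist
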