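import Mathlib
import Cfsg.Agent.S0680

/-!
# S4150-SHARP (team piece for helper43)

A `2`-transitive group of degree `n` and order `n (n - 1)` has prime power degree; a `3`-transitive
group of degree `n` and order `n (n - 1) (n - 2)` has `n - 1` a prime power.
-/

set_option autoImplicit false

namespace Cfsg.Agent.H36.Tw

open Equiv Equiv.Perm

/-- General form: any (not necessarily faithful) `2`-transitive action of a group of order
`n (n - 1)` on `n ≥ 2` points has prime power degree. -/
theorem sharp2_gen {H : Type*} [Group H] [Finite H] {β : Type*} [MulAction H β] [Fintype β]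
    [DecidableEq β] (h2 : MulAction.IsMultiplyPretransitive H β 2) (hn : 2 ≤ Fintype.card β)
    (hcard : Nat.card H = Fintype.card β * (Fintype.card β - 1)) :
    ∃ r j : ℕ, r.Prime ∧ Fintype.card β = r ^ j := by
  classical
  obtain ⟨a0, b0, hab0⟩ := Fintype.exists_pair_of_one_lt_card (by omega : 1 < Fintype.card β)
  obtain ⟨e0, he0⟩ : ∃ e0 : Fin 2 ↪ β, e0 = Function.Embedding.embFinTwo hab0 := ⟨_, rfl⟩
  have hsurj : Function.Surjective (fun g : H => g • e0) := fun e =>
    MulAction.exists_smul_eq H e0 e
  have hcard2 : Nat.card (Fin 2 ↪ β) = Nat.card H := by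
    rw [hcard, Nat.card_eq_fintype_card, Fintype.card_embedding_eq, Fintype.card_fin]
    rw [show (2 : ℕ) = 1 + 1 from rfl, Nat.descFactorial_succ, Nat.descFactorial_one, mul_comm]
  have hinj : Function.Injective (fun g : H => g • e0) :=
    (Function.Surjective.bijective_of_nat_card_le hsurj hcard2.ge).1
  have hsharp : ∀ a b : β, a ≠ b → ∀ g : H, g • a = a → g • b = b → g = 1 := by
    intro a b hab g ha hb
    obtain ⟨h, hh⟩ := hsurj (Function.Embedding.embFinTwo hab)
    have h1 : (g * h) • e0 = h • e0 := by
      rw [mul_smul]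
      have h2' : h • e0 = Function.Embedding.embFinTwo hab := hh
      rw [h2']
      ext i
      fin_cases i
      · exact ha
      · exact hb
    have h3 : g * h = h := hinj h1
    exact mul_eq_right.mp h3
  obtain ⟨p, j, N, hp, -, hj, -⟩ := Cfsg.Agent.S0680.sharp_main (G := H) (α := β) h2 hsharp hn
  exact ⟨p, j, hp, hj⟩

/-- **S4150-SHARP**, first theorem (exact statement posted by helper43). -/
theorem sharp2_prime_power {α : Type*} [Fintype α] [DecidableEq α] (G : Subgroup (Perm α))
    (h2 : MulAction.IsMultiplyPretransitive G α 2) (hn : 2 ≤ Fintype.card α)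
    (hcard : Nat.card G = Fintype.card α * (Fintype.card α - 1)) :
    ∃ r j : ℕ, r.Prime ∧ Fintype.card α = r ^ j :=
  sharp2_gen h2 hn hcard

/-- **S4150-SHARP**, second theorem (exact statement posted by helper43). -/
theorem sharp3_prime_power {α : Type*} [Fintype α] [DecidableEq α] (G : Subgroup (Perm α))
    (h3 : MulAction.IsMultiplyPretransitive G α 3) (hn : 4 ≤ Fintype.card α)
    (hcard : Nat.card G = Fintype.card α * (Fintype.card α - 1) * (Fintype.card α - 2)) :
    ∃ r j : ℕ, r.Prime ∧ Fintype.card α - 1 = r ^ j := by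
  classical
  have hnc : (3 : ℕ) ≤ Nat.card α := by rw [Nat.card_eq_fintype_card]; omega
  have h3' : MulAction.IsMultiplyPretransitive G α 3 := h3
  have h2 : MulAction.IsMultiplyPretransitive G α 2 :=
    MulAction.isMultiplyPretransitive_of_le (n := 3) (by norm_num) hnc
  have h1 : MulAction.IsPretransitive G α := MulAction.isPretransitive_of_is_two_pretransitive
  obtain ⟨a⟩ : Nonempty α := Fintype.card_pos_iff.mp (by omega)
  have hst : MulAction.IsMultiplyPretransitive (MulAction.stabilizer G a)
      (SubMulAction.ofStabilizer G a) 2 :=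
    (SubMulAction.ofStabilizer.isMultiplyPretransitive (G := G) (α := α) (n := 2) (a := a)).mp h3
  have hβ : Fintype.card (SubMulAction.ofStabilizer G a) = Fintype.card α - 1 := by
    rw [← Nat.card_eq_fintype_card, SubMulAction.nat_card_ofStabilizer_eq G a,
      Nat.card_eq_fintype_card]
  have hH : Nat.card (MulAction.stabilizer G a) =
      Fintype.card (SubMulAction.ofStabilizer G a) *
        (Fintype.card (SubMulAction.ofStabilizer G a) - 1) := by
    have e1 := Subgroup.card_mul_index (MulAction.stabilizer G a)
    rw [MulAction.index_stabilizer_of_transitive G a, hcard] at e1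
    have e0 : Nat.card α = Fintype.card α := Nat.card_eq_fintype_card
    rw [e0] at e1
    rw [hβ]
    have hpos : 0 < Fintype.card α := by omega
    have e2 : Nat.card (MulAction.stabilizer G a) * Fintype.card α =
        (Fintype.card α - 1) * (Fintype.card α - 1 - 1) * Fintype.card α := by
      rw [e1]
      have : Fintype.card α - 1 - 1 = Fintype.card α - 2 := by omega
      rw [this]; ring
    exact Nat.eq_of_mul_eq_mul_right hpos e2
  obtain ⟨r, j, hr, hj⟩ := sharp2_gen hst (by rw [hβ]; omega) hH
  exact ⟨r, j, hr, by rw [← hβ]; exact hj⟩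

end Cfsg.Agent.H36.Tw
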